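import Cfsg.Agent.H55.Tits.Simple
import Cfsg.Agent.H46.TitsMult.ActionChecks

/-!
The Tits group as the group of permutations of 3510 vectors generated by seven packed permutations.
-/

set_option autoImplicit false
set_option maxRecDepth 100000

namespace Cfsg.Agent.H46.TitsMult

open Cfsg.Lie Cfsg.Agent.H55.Tits Equiv
open Cfsg.Agent.H16 Cfsg.Agent.H36
open scoped Matrix

attribute [local irreducible] app at' idxOf

theorem action_spec (c : Fin 7) {k : ℕ} (hk : k < 3510) :
    ctx.ap (getN gens c) k < 3510 ∧ at' (ctx.ap (getN gens c) k) = app (prodRows (wordAt c.val)) (at' k) := by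
  have h : allRange (chkAt c.val) 12 0 = true := by
    fin_cases c
    exacts [chk0, chk1, chk2, chk3, chk4, chk5, chk6]
  have h1 := allRange_spec _ 12 0 h k (Nat.zero_le _) (by omega)
  simp only [chkAt, Bool.or_eq_true, Bool.and_eq_true, decide_eq_true_eq, Nat.blt_eq] at h1
  rcases h1 with h1 | ⟨⟨-, h2⟩, h3⟩
  · omega
  · exact ⟨h3, by rw [Nat.eq_of_beq_eq_true h2, wordLit_eq]⟩

/-- The numbering of the orbit, for the points of the program. -/
noncomputable def numb : Fin ctx.n ≃ Orb := numbering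

/-- The permutation action on 3510 indices. -/
noncomputable def φ : ↥F4two →* Perm (Fin ctx.n) := numb.symm.permCongrHom.toMonoidHom.comp orbPerm

/-- The generators of the derived subgroup. -/
noncomputable def h (c : Fin 7) : ↥F4two := gprod (wordAt c.val)

theorem φ_inv_h (c : Fin 7) (x : Fin ctx.n) : ((φ (h c)⁻¹ x : Fin ctx.n) : ℕ) = ctx.ap (getN gens c) x := by
  obtain ⟨h1, h2⟩ := action_spec c x.isLt
  have e : orbPerm (h c)⁻¹ (numb x) = numb ⟨_, h1⟩ := by
    refine Subtype.ext ?_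
    show vec idx (at' x.val) ᵥ* (((h c)⁻¹⁻¹ : ↥F4two).1 : Matrix chevF4.Idx chevF4.Idx (ZMod 2)) =
      vec idx (at' (ctx.ap (getN gens c) x))
    rw [inv_inv, h, h2]
    exact (rowsOf_gprod _).vecMul _
  show ((numb.symm (orbPerm (h c)⁻¹ (numb x)) : Fin ctx.n) : ℕ) = _
  rw [e, Equiv.symm_apply_apply]

theorem images' {A : Type*} [CommGroup A] (f : ↥F4two →* A) :
    f (gen 0) = 1 ∧ f (gen 1) = 1 ∧ f (gen 5) = f (gen 2) ∧ f (gen 2) * f (gen 2) = 1 := by
  obtain ⟨h00, h33, -, -, -, -, h36, h01, h65, h78⟩ := relations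
  obtain ⟨e3, e6, e4, e7⟩ := gen_two_two
  have a00 := congrArg f (gprod_eq_one h00)
  have a33 := congrArg f (gprod_eq_one h33)
  have a36 := congrArg f (gprod_eq_of_rows h36)
  have a01 := congrArg f (gprod_pow_eq_one h01)
  have a65 := congrArg f (gprod_pow_eq_one h65)
  have a78 := congrArg f (gprod_pow_eq_one h78)
  simp only [gprod, List.map_cons, List.map_nil, List.prod_cons, List.prod_nil, mul_one, map_mul, map_one, map_pow]
    at a00 a33 a36 a01 a65 a78
  have h4 : f (gen 4) = (f (gen 2))⁻¹ := eq_inv_of_mul_eq_one_right (by rw [← map_mul, e4, map_one])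
  have h7 : f (gen 7) = (f (gen 5))⁻¹ := eq_inv_of_mul_eq_one_right (by rw [← map_mul, e7, map_one])
  have h3 : f (gen 3) = f (gen 2) * f (gen 2) := by rw [← e3, map_mul]
  have h6 : f (gen 6) = f (gen 5) * f (gen 5) := by rw [← e6, map_mul]
  rw [h3] at a33
  rw [h3, h6, h4] at a36
  rw [h4] at a65
  rw [h7, h6] at a78
  exact derive_images (Additive.ofMul (f (gen 0))) (Additive.ofMul (f (gen 1)))
    (Additive.ofMul (f (gen 2))) (Additive.ofMul (f (gen 5))) a00 a33 a36 a01 a65 a78

/-- The subgroup generated by the words. -/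
noncomputable def K : Subgroup ↥F4two := Subgroup.closure (Set.range h)

theorem h_mem (c : Fin 7) : h c ∈ K := Subgroup.subset_closure ⟨c, rfl⟩

theorem h_eqs : h 0 = gen 0 ∧ h 1 = gen 1 ∧ h 2 = gen 2 * gen 0 * (gen 2)⁻¹ ∧ h 3 = gen 2 * gen 1 * (gen 2)⁻¹ ∧
    h 4 = gen 5 * (gen 2)⁻¹ ∧ h 5 = gen 2 * gen 5 ∧ h 6 = gen 2 * gen 2 := by
  obtain ⟨e3, -, e4, -⟩ := gen_two_two
  have e4' : gen 4 = (gen 2)⁻¹ := eq_inv_of_mul_eq_one_right e4
  simp [h, wordAt, words, gprod, e3, e4', mul_assoc]

theorem derived_eq : commutator ↥F4two = K := by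
  obtain ⟨e0, e1, e2, e3, e4, e5, e6⟩ := h_eqs
  have hg0 : gen 0 ∈ K := by rw [← e0]; exact h_mem 0
  have hg1 : gen 1 ∈ K := by rw [← e1]; exact h_mem 1
  refine le_antisymm ?_ ((Subgroup.closure_le _).2 ?_)
  · have ht : (gen 2)⁻¹ ∈ Subgroup.normalizer (K : Set ↥F4two) := by
      refine Cfsg.Agent.H13.SylMult.mem_normalizer_closure ?_
      rintro _ ⟨c, rfl⟩
      rw [inv_inv]
      show gen 2 * h c * (gen 2)⁻¹ ∈ K
      fin_cases c
      · show gen 2 * h 0 * (gen 2)⁻¹ ∈ K
        rw [e0, ← e2]; exact h_mem 2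
      · show gen 2 * h 1 * (gen 2)⁻¹ ∈ K
        rw [e1, ← e3]; exact h_mem 3
      · show gen 2 * h 2 * (gen 2)⁻¹ ∈ K
        rw [show gen 2 * h 2 * (gen 2)⁻¹ = h 6 * h 0 * (h 6)⁻¹ by rw [e2, e6, e0]; group]
        exact mul_mem (mul_mem (h_mem 6) (h_mem 0)) (inv_mem (h_mem 6))
      · show gen 2 * h 3 * (gen 2)⁻¹ ∈ K
        rw [show gen 2 * h 3 * (gen 2)⁻¹ = h 6 * h 1 * (h 6)⁻¹ by rw [e3, e6, e1]; group]
        exact mul_mem (mul_mem (h_mem 6) (h_mem 1)) (inv_mem (h_mem 6))
      · show gen 2 * h 4 * (gen 2)⁻¹ ∈ K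
        rw [show gen 2 * h 4 * (gen 2)⁻¹ = h 5 * (h 6)⁻¹ by rw [e4, e5, e6]; group]
        exact mul_mem (h_mem 5) (inv_mem (h_mem 6))
      · show gen 2 * h 5 * (gen 2)⁻¹ ∈ K
        rw [show gen 2 * h 5 * (gen 2)⁻¹ = h 6 * h 4 by rw [e4, e5, e6]; group]
        exact mul_mem (h_mem 6) (h_mem 4)
      · show gen 2 * h 6 * (gen 2)⁻¹ ∈ K
        rw [show gen 2 * h 6 * (gen 2)⁻¹ = h 6 by rw [e6]; group]
        exact h_mem 6
    have ht2 : gen 2 ∈ Subgroup.normalizer (K : Set ↥F4two) := by simpa using inv_mem ht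
    have hle : ∀ x ∈ K, x ∈ Subgroup.normalizer (K : Set ↥F4two) := fun x hx => Subgroup.le_normalizer hx
    have htop : Subgroup.normalizer (K : Set ↥F4two) = ⊤ := by
      rw [eq_top_iff, ← closure_gen, Subgroup.closure_le]
      rintro _ ⟨i, rfl⟩
      refine gen_mem_of (hle _ hg0) (hle _ hg1) ht2 ?_ i
      rw [show gen 5 = h 4 * gen 2 by rw [e4]; group]
      exact mul_mem (hle _ (h_mem 4)) ht2
    haveI : K.Normal := Subgroup.normalizer_eq_top_iff.1 htop
    have hz : ∀ g, QuotientGroup.mk' K g ∈ Subgroup.zpowers (QuotientGroup.mk' K (gen 2)) := by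
      intro g
      have hcl : Subgroup.closure (Set.range gen) ≤
          (Subgroup.zpowers (QuotientGroup.mk' K (gen 2))).comap (QuotientGroup.mk' K) := by
        have h1 : ∀ x ∈ K, QuotientGroup.mk' K x = 1 := fun x hx => (QuotientGroup.eq_one_iff x).2 hx
        rw [Subgroup.closure_le]
        rintro _ ⟨i, rfl⟩
        refine gen_mem_of (S := (Subgroup.zpowers (QuotientGroup.mk' K (gen 2))).comap (QuotientGroup.mk' K))
          ?_ ?_ ?_ ?_ i
        · rw [Subgroup.mem_comap, h1 _ hg0]; exact one_mem _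
        · rw [Subgroup.mem_comap, h1 _ hg1]; exact one_mem _
        · exact Subgroup.mem_comap.2 (Subgroup.mem_zpowers _)
        · rw [Subgroup.mem_comap, show gen 5 = h 4 * gen 2 by rw [e4]; group, map_mul, h1 _ (h_mem 4), one_mul]
          exact Subgroup.mem_zpowers _
      rw [closure_gen] at hcl
      exact hcl (Subgroup.mem_top g)
    rw [commutator_def, Subgroup.commutator_le]
    intro a _ b _
    rw [← QuotientGroup.eq_one_iff, ← QuotientGroup.mk'_apply, map_commutatorElement,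
      commutatorElement_eq_one_iff_mul_comm]
    obtain ⟨i, hi⟩ := hz a
    obtain ⟨j, hj⟩ := hz b
    rw [← hi, ← hj, ← zpow_add, ← zpow_add, add_comm]
  · rintro _ ⟨c, rfl⟩
    rw [SetLike.mem_coe, ← Abelianization.ker_of, MonoidHom.mem_ker]
    obtain ⟨a0, a1, a5, a2⟩ := images' (Abelianization.of (G := ↥F4two))
    have ainv : (Abelianization.of (gen 2))⁻¹ = Abelianization.of (gen 2) := inv_eq_of_mul_eq_one_right a2
    fin_cases c
    · exact e0 ▸ a0
    · exact e1 ▸ a1
    · show Abelianization.of (h 2) = 1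
      rw [e2, map_mul, map_mul, map_inv, a0, mul_one, mul_inv_cancel]
    · show Abelianization.of (h 3) = 1
      rw [e3, map_mul, map_mul, map_inv, a1, mul_one, mul_inv_cancel]
    · show Abelianization.of (h 4) = 1
      rw [e4, map_mul, map_inv, a5, mul_inv_cancel]
    · show Abelianization.of (h 5) = 1
      rw [e5, map_mul, a5, a2]
    · show Abelianization.of (h 6) = 1
      rw [e6, map_mul, a2]

theorem gens_length : ctx.gens.length = 7 := rfl

/-- The packed generators as permutations. -/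
noncomputable def σG : Fin ctx.gens.length → Perm (Fin ctx.n) := fun c => φ (h (Fin.cast gens_length c))⁻¹

theorem σG_rep (c : Fin ctx.gens.length) : ctx.Rep (σG c) (getN ctx.gens c) := fun x =>
  φ_inv_h (Fin.cast gens_length c) x

/-- The restriction of the action to the Tits group. -/
noncomputable def φT : TitsGroup →* Perm (Fin ctx.n) := φ.comp (commutator ↥F4two).subtype

theorem φT_range : φT.range = Subgroup.closure (Set.range σG) := by
  rw [φT, MonoidHom.range_comp, Subgroup.range_subtype, derived_eq, K, MonoidHom.map_closure]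
  have e : φ '' Set.range h = (Set.range σG)⁻¹ := by
    ext g
    simp only [Set.mem_image, Set.mem_range, Set.mem_inv]
    constructor
    · rintro ⟨_, ⟨c, rfl⟩, rfl⟩
      exact ⟨Fin.cast gens_length.symm c, by simp [σG]⟩
    · rintro ⟨c, hc⟩
      refine ⟨_, ⟨Fin.cast gens_length c, rfl⟩, ?_⟩
      rw [← inv_inv g, ← hc]
      simp [σG]
  rw [e, Subgroup.closure_inv]

theorem φT_inj : Function.Injective φT := by
  haveI : IsSimpleGroup TitsGroup := titsData.simple
  rcases (inferInstance : φT.ker.Normal).eq_bot_or_eq_top with hb | hb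
  · exact (MonoidHom.ker_eq_bot_iff _).1 hb
  · exfalso
    obtain ⟨x, hx⟩ := moves
    refine hx ?_
    have hm : h 0 ∈ commutator ↥F4two := derived_eq ▸ h_mem 0
    have h1 : φT ⟨h 0, hm⟩ = 1 := MonoidHom.mem_ker.1 (hb ▸ Subgroup.mem_top _)
    have h2 : φ (h 0)⁻¹ = 1 := by rw [map_inv]; exact inv_eq_one.2 h1
    have h3 := φ_inv_h 0 x
    rw [h2] at h3
    exact h3.symm

/-- The Tits group is this permutation group. -/
noncomputable def equivModel : TitsGroup ≃* Subgroup.closure (Set.range σG) :=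
  (MonoidHom.ofInjective φT_inj).trans (MulEquiv.subgroupCongr φT_range)

theorem card_closure : Nat.card (Subgroup.closure (Set.range σG)) = 17971200 := by
  rw [← Nat.card_congr equivModel.toEquiv, card_derived]
  rfl

end Cfsg.Agent.H46.TitsMult
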